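import Cfsg.Agent.Part.CC
import Cfsg.Agent.Solv.Hughes
import Cfsg.Agent.Inst.S0108
import Cfsg.Agent.Spor.SharpTrans

/-!
# General lemmas for groups with a partition
-/

set_option autoImplicit false

universe u

namespace Cfsg.Lib.Part

open Cfsg.Agent Cfsg.Lib.Solv Subgroup

variable {G : Type u} [Group G] [Finite G]

/-- Kegel's theorem for a subgroup normalized by an element. -/
theorem nilpotent_of_coset {p : ℕ} (hp : p.Prime) {Q : Subgroup G} {a : G}
    (ha : a ∈ normalizer (Q : Set G)) (haQ : a ∉ Q)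
    (h : ∀ g ∈ Q ⊔ zpowers a, g ∉ Q → g ^ p = 1) : Group.IsNilpotent Q := by
  have hL : Q ⊔ zpowers a ≤ normalizer (Q : Set G) := sup_le le_normalizer (zpowers_le.2 ha)
  have : (Q.subgroupOf (Q ⊔ zpowers a)).Normal := (normal_subgroupOf_iff_le_normalizer le_sup_left).2 hL
  have h1 := Hughes.isNilpotent hp (H := Q.subgroupOf (Q ⊔ zpowers a))
    (fun e => haQ (subgroupOf_eq_top.1 e (mem_sup_right (mem_zpowers a))))
    fun g hg => Subtype.ext (h g g.2 hg)
  exact Group.nilpotent_of_mulEquiv (subgroupOfEquivOfLe (le_sup_left : Q ≤ Q ⊔ zpowers a))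

omit [Finite G] in
theorem pow_mem_of_mem_sup {Q : Subgroup G} {a g : G} {n : ℕ} (ha : a ∈ normalizer (Q : Set G))
    (han : a ^ n ∈ Q) (hg : g ∈ Q ⊔ zpowers a) : g ^ n ∈ Q := by
  have hL : Q ⊔ zpowers a ≤ normalizer (Q : Set G) := sup_le le_normalizer (zpowers_le.2 ha)
  have : (Q.subgroupOf (Q ⊔ zpowers a)).Normal := (normal_subgroupOf_iff_le_normalizer le_sup_left).2 hL
  let f := QuotientGroup.mk' (Q.subgroupOf (Q ⊔ zpowers a))
  let a' : ↥(Q ⊔ zpowers a) := ⟨a, mem_sup_right (mem_zpowers a)⟩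
  have h1 : Q ⊔ zpowers a ≤ ((zpowers (f a')).comap f).map (Q ⊔ zpowers a).subtype := by
    refine sup_le (fun x hx => ⟨⟨x, mem_sup_left hx⟩, ?_, rfl⟩) (zpowers_le.2 ⟨a', mem_zpowers _, rfl⟩)
    have : f ⟨x, mem_sup_left hx⟩ = 1 := (QuotientGroup.eq_one_iff _).2 hx
    change f _ ∈ zpowers (f a')
    rw [this]
    exact one_mem _
  obtain ⟨g', ⟨k, hk⟩, rfl⟩ := h1 hg
  have h2 : f (a' ^ n) = 1 := (QuotientGroup.eq_one_iff _).2 han
  have h3 : f (g' ^ n) = 1 := by
    rw [map_pow, ← hk, ← zpow_natCast, ← zpow_mul, mul_comm, zpow_mul, zpow_natCast, ← map_pow, h2,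
      one_zpow]
  exact (QuotientGroup.eq_one_iff (g' ^ n)).1 h3

omit [Finite G] in
theorem dvd_orderOf_of_pow_mem {p : ℕ} (hp : p.Prime) {Q : Subgroup G} {g : G} (hg : g ∉ Q)
    (h : g ^ p ∈ Q) : p ∣ orderOf g := by
  by_contra h1
  have h2 : (orderOf g).Coprime p := ((Nat.Prime.coprime_iff_not_dvd hp).2 h1).symm
  obtain ⟨m, hm⟩ := exists_pow_eq_self_of_coprime h2.symm
  exact hg (hm ▸ pow_mem h m)

/-- An element outside `Q` has a power outside `Q` whose `p`-th power lies in `Q`, `p` prime. -/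
theorem exists_prime_pow_mem {Q : Subgroup G} {g : G} (hg : g ∉ Q) :
    ∃ p k : ℕ, p.Prime ∧ g ^ k ∉ Q ∧ (g ^ k) ^ p ∈ Q := by
  classical
  have hex : ∃ n, 0 < n ∧ g ^ n ∈ Q := ⟨orderOf g, orderOf_pos g, by simp⟩
  have h1 := Nat.find_spec hex
  have hn1 : Nat.find hex ≠ 1 := fun e => hg (by simpa [e] using h1.2)
  obtain ⟨p, hp, k, hk⟩ := Nat.exists_prime_and_dvd hn1
  have hk0 : 0 < k := Nat.pos_of_ne_zero fun e => by
    rw [e, mul_zero] at hk
    omega
  refine ⟨p, k, hp, fun h => Nat.find_min hex (m := k) ?_ ⟨hk0, h⟩, ?_⟩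
  · rw [hk]
    exact lt_mul_of_one_lt_left hk0 hp.one_lt
  · rw [← pow_mul, mul_comm, ← hk]
    exact h1.2

theorem exists_frobenius {N : Subgroup G} [N.Normal] (h1 : N ≠ ⊥) (h2 : N ≠ ⊤)
    (h : ∀ n ∈ N, n ≠ 1 → ∀ g : G, Commute g n → g ∈ N) : ∃ H : Subgroup G, IsFrobeniusComplement H := by
  have hco : (Nat.card N).Coprime N.index := by
    refine Nat.Coprime.symm (Nat.coprime_of_dvd fun p hp hd hd' => ?_)
    have := Fact.mk hp
    refine not_dvd_index_of_forall_mem hp (fun x k hx => ?_) hd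
    obtain ⟨y, ⟨hy, hy'⟩, hy1⟩ := (bot_or_exists_ne_one _).resolve_left
      (inf_centralizer_ne_bot_of_dvd_card (Q := zpowers x) (L := N)
        (IsPGroup.of_card (n := k) (by rw [Nat.card_zpowers, hx]))
        (by rw [normalizer_eq_top]; exact le_top) hd')
    exact h y hy hy1 x (hy' x (mem_zpowers x))
  obtain ⟨E, hE⟩ := exists_right_complement'_of_coprime hco
  have hE1 : E ≠ ⊥ := by
    rintro rfl
    have := hE.sup_eq_top
    rw [sup_bot_eq] at this
    exact h2 this
  refine ⟨E, isFrobeniusComplement_of_fpf hE h1 hE1 fun e he he1 => eq_bot_iff.2 fun x hx => ?_⟩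
  by_contra hx1
  have : e ∈ N ⊓ E := ⟨h x hx.1 hx1 e (mem_centralizer_singleton_iff.1 hx.2).symm, he⟩
  rw [hE.disjoint.eq_bot] at this
  exact he1 this

/-- Every element of order divisible by `p` is a `p`-element. -/
def Pure (p : ℕ) (G : Type*) [Group G] : Prop := ∀ g : G, p ∣ orderOf g → ∃ k, g ^ p ^ k = 1

namespace Pure

variable {p : ℕ}

omit [Finite G] in
theorem of_comm (h : Pure p G) {x y : G} (hx : p ∣ orderOf x) (hy : (orderOf y).Coprime (orderOf x))
    (hc : Commute x y) : y = 1 := by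
  have h1 := hc.orderOf_mul_eq_mul_orderOf_of_coprime hy.symm
  obtain ⟨k, hk⟩ := h (x * y) (h1 ▸ hx.mul_right _)
  have h2 : orderOf y ∣ p ^ k := (Dvd.intro_left _ h1.symm).trans (orderOf_dvd_of_pow_eq_one hk)
  rw [← orderOf_eq_one_iff]
  exact Nat.eq_one_of_dvd_coprimes (Nat.Coprime.pow_right k (hy.coprime_dvd_right hx)) dvd_rfl h2

omit [Finite G] in
theorem pow_of_comm (h : Pure p G) (hp : p.Prime) {x g : G} (hx1 : x ≠ 1) {j : ℕ}
    (hx : x ^ p ^ j = 1) (hc : Commute g x) : ∃ k, g ^ p ^ k = 1 := by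
  obtain ⟨i, -, hi⟩ := (Nat.dvd_prime_pow hp).1 (orderOf_dvd_of_pow_eq_one hx)
  have hi0 : i ≠ 0 := fun e => hx1 (by rwa [e, pow_zero, orderOf_eq_one_iff] at hi)
  by_cases hd : p ∣ orderOf g
  · exact h g hd
  · refine ⟨0, ?_⟩
    rw [h.of_comm (x := x) (y := g) (hi ▸ dvd_pow_self p hi0)
      (hi ▸ ((Nat.Prime.coprime_iff_not_dvd hp).2 hd).symm.pow_right i) hc.symm, one_pow]

theorem mem_of_cent (h : Pure p G) (hp : p.Prime) (hF : pCore p G ≠ ⊥) {g : G}
    (hg : ∀ x ∈ pCore p G, x * g = g * x) : g ∈ pCore p G := by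
  obtain ⟨z, hz, hz1⟩ := (bot_or_exists_ne_one _).resolve_left hF
  obtain ⟨j, hj⟩ := pCore_isPGroup p G ⟨z, hz⟩
  refine le_pCore (N := centralizer (pCore p G : Set G)) inferInstance
    (PG.isPGroup_of_forall_mem fun x hx => ?_) hg
  exact h.pow_of_comm hp hz1 (congrArg Subtype.val hj) (hx z hz).symm

omit [Finite G] in
theorem comm_of_inverts {N : Subgroup G} [hN : N.Normal] {u g : G} (hu : ∀ x ∈ N, u * x * u⁻¹ = x⁻¹) :
    ∀ x ∈ N, x * (g * u * g⁻¹ * u⁻¹) = g * u * g⁻¹ * u⁻¹ * x := fun x hx => by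
  have h1 := hu x⁻¹ (inv_mem hx)
  have h2 := hu (g⁻¹ * x⁻¹ * g) (by simpa using hN.conj_mem _ (inv_mem hx) g⁻¹)
  rw [inv_inv] at h1
  calc x * (g * u * g⁻¹ * u⁻¹) = g * (g⁻¹ * x⁻¹ * g)⁻¹ * u * g⁻¹ * u⁻¹ := by group
    _ = g * u * g⁻¹ * x⁻¹ * u⁻¹ := by rw [← h2]; group
    _ = g * u * g⁻¹ * u⁻¹ * (u * x⁻¹ * u⁻¹) := by group
    _ = _ := by rw [h1]

/-- If all `p`-elements outside `O_p(G) ≠ 1` have order `p` there are none. -/
theorem mem_pCore (h : Pure p G) (hp : p.Prime) (hF : pCore p G ≠ ⊥)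
    (h2 : ∀ g : G, g ∉ pCore p G → p ∣ orderOf g → g ^ p = 1) {a : G} (ha : p ∣ orderOf a) :
    a ∈ pCore p G := by
  have := Fact.mk hp
  by_contra haF
  have hap := h2 a haF ha
  have hnF : ∀ g : G, g ∈ normalizer (pCore p G : Set G) := fun g => by
    rw [normalizer_eq_top]; trivial
  obtain ⟨z, hz, hzo⟩ := exists_mem_orderOf_eq_prime hp (K := pCore p G) (by
    obtain ⟨k, hk⟩ := (pCore_isPGroup p G).exists_card_eq
    rw [hk]
    exact dvd_pow_self p fun e => hF (by rwa [e, pow_zero, card_eq_one] at hk))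
  by_cases hp2 : p = 2
  · subst hp2
    have hinv : ∀ x ∈ pCore 2 G, a * x * a⁻¹ = x⁻¹ := fun x hx => by
      have h3 : a * x ∉ pCore 2 G := fun e => haF ((mul_mem_cancel_right hx).1 e)
      have h4 := h2 _ h3 (dvd_orderOf_of_pow_mem hp h3 (pow_mem_of_mem_sup (hnF a)
        (hap ▸ one_mem _) (mul_mem (mem_sup_right (mem_zpowers a)) (mem_sup_left hx))))
      rw [pow_two] at h4 hap
      calc a * x * a⁻¹ = a * x * (a * x) * x⁻¹ * (a * a)⁻¹ := by group
        _ = x⁻¹ := by rw [h4, hap]; group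
    have hn : (pCore 2 G ⊔ zpowers a).Normal := by
      refine ⟨fun x hx g => ?_⟩
      have : pCore 2 G ⊔ zpowers a ≤ (pCore 2 G ⊔ zpowers a).comap (MulAut.conj g).toMonoidHom := by
        refine sup_le (fun y hy => mem_sup_left ((inferInstance : (pCore 2 G).Normal).conj_mem y hy g))
          (zpowers_le.2 ?_)
        have := mul_mem (mem_sup_left (T := zpowers a) (h.mem_of_cent hp hF
          (comm_of_inverts (g := g) hinv))) (mem_sup_right (mem_zpowers a))
        simpa using this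
      exact this hx
    refine haF (le_pCore hn ((pCore_isPGroup 2 G).to_sup_of_normal_left ?_)
      (mem_sup_right (mem_zpowers a)))
    exact PG.isPGroup_of_forall_mem fun x ⟨k, hk⟩ => ⟨1, by
      rw [← hk, pow_one, ← zpow_natCast, ← zpow_mul, mul_comm, zpow_mul, zpow_natCast, hap, one_zpow]⟩
  by_cases he : 2 ∣ Nat.card G
  · obtain ⟨t, ht⟩ := exists_prime_orderOf_dvd_card' 2 he
    have htt : t * t = 1 := by rw [← pow_two, ← ht, pow_orderOf_eq_one]
    have ht' : t⁻¹ = t := inv_eq_of_mul_eq_one_right htt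
    have hinv : ∀ x ∈ pCore p G, t * x * t⁻¹ = x⁻¹ := fun x hx => by
      rw [ht']
      refine Spor.inverts_of_fpf htt (fun y hy => ?_) (fun y hy e => ?_) x hx
      · simpa [ht'] using (inferInstance : (pCore p G).Normal).conj_mem y hy t
      · by_contra hy1
        obtain ⟨j, hj⟩ := pCore_isPGroup p G ⟨y, hy⟩
        obtain ⟨k, hk⟩ := h.pow_of_comm hp hy1 (congrArg Subtype.val hj) (g := t) (by
          change t * y = y * t
          calc t * y = t * y * t * t := by rw [mul_assoc (t * y), htt, mul_one]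
            _ = y * t := by rw [e])
        have := orderOf_dvd_of_pow_eq_one hk
        rw [ht] at this
        exact hp2 ((Nat.prime_dvd_prime_iff_eq Nat.prime_two hp).1
          (Nat.prime_two.dvd_of_dvd_pow this)).symm
    have h3 := h.mem_of_cent hp hF (comm_of_inverts (g := a) hinv)
    let f := QuotientGroup.mk' (pCore p G)
    have hc : Commute (f a) (f t) := by
      have : f (a * t * a⁻¹ * t⁻¹) = 1 := (QuotientGroup.eq_one_iff _).2 h3
      simp only [map_mul, map_inv] at this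
      exact commutatorElement_eq_one_iff_mul_comm.1 this
    have hfa : orderOf (f a) = p := orderOf_eq_prime (by rw [← map_pow, hap, map_one])
      fun e => haF ((QuotientGroup.eq_one_iff _).1 e)
    have hft : orderOf (f t) = 2 := orderOf_eq_prime (by rw [← map_pow, pow_two, htt, map_one])
      fun e => by
        obtain ⟨j, hj⟩ := pCore_isPGroup p G ⟨t, (QuotientGroup.eq_one_iff _).1 e⟩
        have := orderOf_dvd_of_pow_eq_one (congrArg Subtype.val hj : t ^ p ^ j = 1)
        rw [ht] at this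
        exact hp2 ((Nat.prime_dvd_prime_iff_eq Nat.prime_two hp).1
          (Nat.prime_two.dvd_of_dvd_pow this)).symm
    have h4 := hc.orderOf_mul_eq_mul_orderOf_of_coprime (by
      rw [hfa, hft]; exact (Nat.coprime_primes hp Nat.prime_two).2 hp2)
    rw [hfa, hft, ← map_mul] at h4
    have h5 : p * 2 ∣ orderOf (a * t) := h4 ▸ orderOf_map_dvd f _
    obtain ⟨k, hk⟩ := h _ ((Dvd.intro _ rfl).trans h5)
    have := ((Dvd.intro_left _ rfl).trans h5).trans (orderOf_dvd_of_pow_eq_one hk)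
    exact hp2 ((Nat.prime_dvd_prime_iff_eq Nat.prime_two hp).1
      (Nat.prime_two.dvd_of_dvd_pow this)).symm
  · have : Group.IsSolvable G := FT.odd_order_solvable (Nat.odd_iff.2 (by omega))
    let f := QuotientGroup.mk' (pCore p G)
    have hfa : f a ≠ 1 := fun e => haF ((QuotientGroup.eq_one_iff _).1 e)
    obtain ⟨q, N, hq, hN, -, -, hNq, hNp⟩ := exists_isMinNormal_elementary_le
      (⊤ : Subgroup (G ⧸ pCore p G)) fun e => hfa (by
        have : f a ∈ (⊤ : Subgroup (G ⧸ pCore p G)) := trivial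
        rwa [e] at this)
    have := hN.normal
    have hqp : q ≠ p := by
      rintro rfl
      exact hN.ne_bot (le_bot_iff.1 (pCore_quotient_pCore q G ▸ le_pCore this hNp))
    have hco : ∀ g : G, f g ∈ N → g ^ p ∈ pCore p G → g ∈ pCore p G := fun g hg hgp => by
      have h3 : f g ^ p = 1 := by rw [← map_pow]; exact (QuotientGroup.eq_one_iff _).2 hgp
      have h4 := Nat.dvd_gcd (orderOf_dvd_of_pow_eq_one h3) (orderOf_dvd_of_pow_eq_one (hNq _ hg))
      rw [(Nat.coprime_primes hp hq).2 hqp.symm, Nat.dvd_one, orderOf_eq_one_iff] at h4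
      exact (QuotientGroup.eq_one_iff _).1 h4
    have hFQ : pCore p G ≤ N.comap f := fun x hx => by
      have : f x = 1 := (QuotientGroup.eq_one_iff _).2 hx
      rw [mem_comap, this]
      exact one_mem _
    have haN : a ∈ normalizer (N.comap f : Set G) := by rw [normalizer_eq_top]; trivial
    have hnil := nilpotent_of_coset hp haN (fun e => haF (hco a e (hap ▸ one_mem _)))
      fun g hg hgN => h2 g (fun e => hgN (hFQ e)) (dvd_orderOf_of_pow_mem hp hgN
        (pow_mem_of_mem_sup haN (hap ▸ one_mem _) hg))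
    obtain ⟨y, hy, hy1⟩ := (bot_or_exists_ne_one _).resolve_left hN.ne_bot
    have := Fact.mk hq
    obtain ⟨x, rfl, j, hj⟩ := exists_lift_prime_pow f (QuotientGroup.mk'_surjective _) hq
      (y := y) (k := 1) (by rw [pow_one]; exact orderOf_eq_prime (hNq y hy) hy1)
    have hco' : (orderOf x).Coprime (orderOf z) := by
      rw [hj, hzo]; exact ((Nat.coprime_primes hq hp).2 hqp).pow_left j
    have := h.of_comm (hzo ▸ dvd_rfl) hco'
      (commute_of_mem_of_coprime_of_isNilpotent hnil (hFQ hz) hy hco'.symm)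
    exact hy1 (by rw [this, map_one])

end Pure

end Cfsg.Lib.Part
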