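import Cfsg.Agent.Part.Gen

/-!
# Conjugation invariant partitions; the case of a normal component
-/

set_option autoImplicit false

universe u

namespace Cfsg.Lib.Part

open Cfsg.Agent Cfsg.Lib.Solv Subgroup Pointwise

/-- A non-trivial partition invariant under conjugation; `c x` is the component of `x ≠ 1`. -/
structure Pt (G : Type*) [Group G] where
  /-- the component -/
  c : G → Subgroup G
  mem : ∀ x, x ∈ c x
  ne_top : ∀ {x}, x ≠ 1 → c x ≠ ⊤
  eq : ∀ {x y}, x ≠ 1 → y ≠ 1 → y ∈ c x → c y = c x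
  conj : ∀ {x y} (g), x ≠ 1 → y ∈ c x → g * y * g⁻¹ ∈ c (g * x * g⁻¹)

variable {G : Type u} [Group G]

theorem nonempty_pt (S : Set (Subgroup G)) (hS2 : ∃ H ∈ S, ∃ K ∈ S, H ≠ K) (hS1 : ∀ H ∈ S, H ≠ ⊥)
    (hpart : ∀ g : G, g ≠ 1 → ∃! H : Subgroup G, H ∈ S ∧ g ∈ H) : Nonempty (Pt G) := by
  have hne : ∀ H ∈ S, H ≠ ⊤ := by
    rintro _ hT rfl
    have : ∀ H ∈ S, H = ⊤ := fun H hH => by
      obtain ⟨x, hx, hx1⟩ := (bot_or_exists_ne_one _).resolve_left (hS1 H hH)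
      exact (hpart x hx1).unique ⟨hH, hx⟩ ⟨hT, trivial⟩
    obtain ⟨H, hH, K, hK, h⟩ := hS2
    exact h ((this H hH).trans (this K hK).symm)
  let c : G → Subgroup G := fun x =>
    { carrier := {y | ∀ g : G, ∀ H ∈ S, g * x * g⁻¹ ∈ H → g * y * g⁻¹ ∈ H}
      one_mem' := fun g H _ _ => by simp
      mul_mem' := fun {a b} ha hb g H hH h => by
        simpa [mul_assoc] using mul_mem (ha g H hH h) (hb g H hH h)
      inv_mem' := fun {a} ha g H hH h => by simpa [mul_assoc] using inv_mem (ha g H hH h) }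
  have key : ∀ {x y}, x ≠ 1 → y ≠ 1 → y ∈ c x → x ∈ c y := fun {x y} hx hy h g H hH hyH => by
    obtain ⟨K, ⟨hK, hxK⟩, -⟩ := hpart (g * x * g⁻¹) (by simpa using hx)
    rwa [(hpart (g * y * g⁻¹) (by simpa using hy)).unique ⟨hH, hyH⟩ ⟨hK, h g K hK hxK⟩]
  refine ⟨⟨c, fun x g H _ h => h, fun {x} hx e => ?_, fun {x y} hx hy h => le_antisymm
    (fun z hz g H hH h' => hz g H hH (h g H hH h'))
    (fun z hz g H hH h' => hz g H hH (key hx hy h g H hH h')), fun {x y} g _ h k H hH h' => ?_⟩⟩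
  · obtain ⟨K, ⟨hK, hxK⟩, -⟩ := hpart x hx
    refine hne K hK (eq_top_iff.2 fun y _ => ?_)
    have : y ∈ c x := e ▸ mem_top y
    simpa using this 1 K hK (by simpa using hxK)
  · have := h (k * g) H hH (by simpa [mul_assoc] using h')
    simpa [mul_assoc] using this

namespace Pt

variable (P : Pt G) {x y z g : G}

theorem symm (hx : x ≠ 1) (hy : y ≠ 1) (h : y ∈ P.c x) : x ∈ P.c y := P.eq hx hy h ▸ P.mem x

theorem eq_one (hx : x ≠ 1) (h : y ∉ P.c x) (h1 : z ∈ P.c x) (h2 : z ∈ P.c y) : z = 1 := by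
  by_contra hz
  have hy : y ≠ 1 := fun e => h (e ▸ one_mem _)
  exact h (P.eq hx hz h1 ▸ P.eq hy hz h2 ▸ P.mem y)

theorem conj_iff (hx : x ≠ 1) : g * y * g⁻¹ ∈ P.c (g * x * g⁻¹) ↔ y ∈ P.c x :=
  ⟨fun h => by simpa [mul_assoc] using P.conj g⁻¹ (by simpa using hx) h, P.conj g hx⟩

theorem mem_norm (hx : x ≠ 1) (hy : y ≠ 1) (h : y ∈ P.c x) (hg : g * y * g⁻¹ ∈ P.c x) :
    g ∈ normalizer (P.c x : Set G) := by
  refine mem_normalizer_iff.2 fun z => ?_
  rw [← P.eq hx (by simpa using hy) hg, P.conj_iff hy, P.eq hx (by simpa using hy) hg, P.eq hx hy h]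

theorem mem_norm_of_comm (hx : x ≠ 1) (h : Commute g x) : g ∈ normalizer (P.c x : Set G) :=
  P.mem_norm hx hx (P.mem x) (by rw [h.eq, mul_inv_cancel_right]; exact P.mem x)

theorem pow_eq_one (hx : x ≠ 1) (h : y ∉ P.c x) {k : ℕ} (hk : y ^ k ∈ P.c x) : y ^ k = 1 :=
  P.eq_one hx h hk (pow_mem (P.mem y) k)

theorem pow_eq_one_of_comm (hx : x ≠ 1) (h : y ∉ P.c x) (hc : Commute x y) {m : ℕ}
    (hm : y ^ m = 1) : x ^ m = 1 := by
  have h1 : x * y ∉ P.c x := fun e => h ((mul_mem_cancel_left (P.mem x)).1 e)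
  have h2 : (x * y) ^ m = x ^ m := by rw [hc.mul_pow, hm, mul_one]
  rw [← h2]
  exact P.pow_eq_one hx h1 (h2 ▸ pow_mem (P.mem x) m)

theorem orderOf_eq (hx : x ≠ 1) (h : y ∉ P.c x) (hc : Commute x y) : orderOf x = orderOf y := by
  have hy : y ≠ 1 := fun e => h (e ▸ one_mem _)
  exact orderOf_eq_orderOf_iff.2 fun m =>
    ⟨P.pow_eq_one_of_comm hy (fun e => h (P.symm hy hx e)) hc.symm, P.pow_eq_one_of_comm hx h hc⟩

theorem inverts (hx : x ≠ 1) (hg : g ∈ normalizer (P.c x : Set G)) (h : g ∉ P.c x)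
    (h2 : g * g = 1) (hy : y ∈ P.c x) : g * y * g⁻¹ = y⁻¹ := by
  have h1 : g * y ∉ P.c x := fun e => h ((mul_mem_cancel_right hy).1 e)
  have h3 := P.pow_eq_one hx h1 (pow_mem_of_mem_sup (n := 2) hg (by rw [pow_two, h2]; exact one_mem _)
    (mul_mem (mem_sup_right (mem_zpowers g)) (mem_sup_left hy)))
  rw [pow_two] at h3
  calc g * y * g⁻¹ = g * y * (g * y) * y⁻¹ * (g * g)⁻¹ := by group
    _ = y⁻¹ := by rw [h3, h2]; group

variable [Finite G]

theorem prime (hx : x ≠ 1) (h : y ∉ P.c x) (hc : Commute x y) : (orderOf x).Prime := by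
  obtain ⟨p, hp, hd⟩ := Nat.exists_prime_and_dvd (mt orderOf_eq_one_iff.1 hx)
  by_cases h1 : x ^ p = 1
  · rwa [Nat.dvd_antisymm (orderOf_dvd_of_pow_eq_one h1) hd]
  · have h2 := P.orderOf_eq h1 (by rwa [P.eq hx h1 (pow_mem (P.mem x) p)]) (hc.pow_left p)
    rw [← P.orderOf_eq hx h hc, orderOf_pow_of_dvd hp.ne_zero hd] at h2
    exact absurd h2 (Nat.div_lt_self (orderOf_pos x) hp.one_lt).ne

omit [Finite G] in
theorem mem_of_ne (hx : x ≠ 1) (hc : Commute x y) (h : orderOf x ≠ orderOf y) : y ∈ P.c x := by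
  by_contra h1
  exact h (P.orderOf_eq hx h1 hc)

theorem isNilpotent (hx : x ≠ 1) (hg : g ∈ normalizer (P.c x : Set G)) (h : g ∉ P.c x) :
    Group.IsNilpotent (P.c x) := by
  obtain ⟨p, k, hp, h1, h2⟩ := exists_prime_pow_mem h
  exact nilpotent_of_coset hp (pow_mem hg k) h1 fun a ha ha' =>
    P.pow_eq_one hx ha' (pow_mem_of_mem_sup (pow_mem hg k) h2 ha)

omit [Finite G] in
theorem frobenius (hx : x ≠ 1) (h : normalizer (P.c x : Set G) ≤ P.c x) :
    IsFrobeniusComplement (P.c x) := by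
  refine ⟨fun e => hx (mem_bot.1 (e ▸ P.mem x)), P.ne_top hx, fun g hg => eq_bot_iff.2 fun y hy => ?_⟩
  by_contra hy1
  exact hg ((inv_mem_iff).1 (h (P.mem_norm hx hy1 hy.1 (by
    simpa using Local.mem_conj_smul.1 hy.2))))

/-- Elements normalizing a component whose order is not prime to that of the component. -/
theorem pow_prime (hx : x ≠ 1) (hg : g ∈ normalizer (P.c x : Set G)) (h : g ∉ P.c x) {r : ℕ}
    (hr : r.Prime) (h1 : r ∣ Nat.card (P.c x)) (h2 : r ∣ orderOf g) : g ^ r = 1 := by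
  have := Fact.mk hr
  have ho := orderOf_pow_orderOf_div (orderOf_pos g).ne' h2
  set a := g ^ (orderOf g / r) with ha
  have ha1 : a ≠ 1 := fun e => hr.one_lt.ne (by rw [← ho, e, orderOf_one])
  obtain ⟨w, ⟨hw, hw'⟩, hw1⟩ := (bot_or_exists_ne_one _).resolve_left
    (inf_centralizer_ne_bot_of_dvd_card (Q := zpowers a) (L := P.c x)
      (IsPGroup.of_card (n := 1) (by rw [Nat.card_zpowers, ho, pow_one]))
      (zpowers_le.2 (pow_mem hg _)) h1)
  have hg1 : g ≠ 1 := fun e => h (e ▸ one_mem _)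
  have h3 : w ∈ normalizer (P.c g : Set G) := by
    rw [← P.eq hg1 ha1 (pow_mem (P.mem g) _)]
    exact P.mem_norm_of_comm ha1 (hw' a (mem_zpowers a)).symm
  have h4 : g * w * g⁻¹ * w⁻¹ = 1 := by
    refine P.eq_one hx h (mul_mem ((mem_normalizer_iff.1 hg w).1 hw) (inv_mem hw)) ?_
    have := mul_mem (P.mem g) ((mem_normalizer_iff.1 h3 _).1 (inv_mem (P.mem g)))
    simpa [mul_assoc] using this
  have hc : Commute w g := (commutatorElement_eq_one_iff_mul_comm.1 h4).symm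
  have h5 : g ∉ P.c w := by rwa [P.eq hx hw1 hw]
  have h6 := P.prime hw1 h5 hc
  rw [P.orderOf_eq hw1 h5 hc] at h6
  rw [(Nat.prime_dvd_prime_iff_eq hr h6).1 h2, pow_orderOf_eq_one]

/-- The case of a normal component. -/
theorem of_normal (hx : x ≠ 1) [hN : (P.c x).Normal] :
    (∃ p : ℕ, p.Prime ∧ closure {g : G | g ^ p ≠ 1} ≠ ⊤) ∨ ∃ H : Subgroup G, IsFrobeniusComplement H := by
  have hn : ∀ g : G, g ∈ normalizer (P.c x : Set G) := fun g => by rw [normalizer_eq_top]; trivial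
  by_cases h0 : ∀ n ∈ P.c x, n ≠ 1 → ∀ g : G, Commute g n → g ∈ P.c x
  · exact Or.inr (exists_frobenius (fun e => hx (mem_bot.1 (e ▸ P.mem x))) (P.ne_top hx) h0)
  push Not at h0
  obtain ⟨h, hh, hh1, a, hc, ha⟩ := h0
  have ha' : a ∉ P.c h := by rwa [P.eq hx hh1 hh]
  have hr := P.prime hh1 ha' hc.symm
  have hao := (P.orderOf_eq hh1 ha' hc.symm).symm
  set r := orderOf h with hro
  have := Fact.mk hr
  have hstar : ∀ y ∉ P.c x, r ∣ orderOf y → y ^ r = 1 := fun y hy =>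
    P.pow_prime hx (hn y) hy hr (orderOf_dvd_natCard _ hh)
  by_cases h1 : ∀ y ∉ P.c x, y ^ r = 1
  · refine Or.inl ⟨r, hr, fun e => P.ne_top hx (eq_top_iff.2 (e ▸ (closure_le _).2 fun y hy => ?_))⟩
    by_contra hy'
    exact hy (h1 y hy')
  push Not at h1
  obtain ⟨y₀, hy₀, hy₀r⟩ := h1
  obtain ⟨t, k, ht, hy, hyt⟩ := exists_prime_pow_mem hy₀
  set y := y₀ ^ k
  have hyt1 := P.pow_eq_one hx hy hyt
  have hyo : orderOf y = t := by
    have := Fact.mk ht
    exact orderOf_eq_prime hyt1 fun e => hy (e ▸ one_mem _)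
  have htr : t ≠ r := fun e => hy₀r (hstar y₀ hy₀ (e ▸ hyo ▸ orderOf_pow_dvd k))
  have hnil := P.isNilpotent hx (hn a) ha
  let K := pPrimeCore r G
  let f := QuotientGroup.mk' K
  have hKo : ∀ g ∈ K, (orderOf g).Coprime r := fun g hg =>
    (coprime_card_pPrimeCore r G).coprime_dvd_left (orderOf_dvd_natCard _ hg)
  have hHK : ∀ g ∈ P.c x, (orderOf g).Coprime r → g ∈ K := fun g hg hco =>
    map_pPrimeCore_le_of_normal (P.c x) ((mem_map_pPrimeCore_iff_of_isNilpotent hnil).2 ⟨hg, hco⟩)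
  have hhF : h ∈ pCore r G := map_pCore_le_of_normal (P.c x)
    ((mem_map_pCore_iff_of_isNilpotent hnil).2 ⟨hh, 1, by rw [pow_one]⟩)
  have hKH : K ≤ P.c x := fun g hg => by
    rw [← P.eq hx hh1 hh]
    refine P.mem_of_ne hh1 (commute_of_normal_of_disjoint _ _ inferInstance inferInstance
      (disjoint_of_coprime_natCard (coprime_card_of_isPGroup (pCore_isPGroup r G)
        (coprime_card_pPrimeCore r G))) h g hhF hg) fun e => ?_
    exact hr.one_lt.ne' ((Nat.coprime_self r).1 (by have := hKo g hg; rwa [← e] at this))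
  have hHp : ∀ g ∈ P.c x, ∃ k, f g ^ r ^ k = 1 := fun g hg => by
    refine ⟨(orderOf g).factorization r, ?_⟩
    rw [← map_pow]
    refine (QuotientGroup.eq_one_iff _).2 (hHK _ (pow_mem hg _) ?_)
    rw [orderOf_pow_of_dvd (pow_pos hr.pos _).ne' (Nat.ordProj_dvd _ _)]
    exact (Nat.coprime_ordCompl hr (orderOf_pos g).ne').symm
  have hHF : ∀ g ∈ P.c x, f g ∈ pCore r (G ⧸ K) := fun g hg =>
    le_pCore (N := (P.c x).map f) (hN.map f (QuotientGroup.mk'_surjective K))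
      (PG.isPGroup_of_forall_mem (by rintro _ ⟨w, hw, rfl⟩; exact hHp w hw)) ⟨g, hg, rfl⟩
  have hpure : Pure r (G ⧸ K) := fun g hg => by
    obtain ⟨g, rfl⟩ := QuotientGroup.mk'_surjective K g
    by_cases hgH : g ∈ P.c x
    · exact hHp g hgH
    · exact ⟨1, by rw [pow_one, ← map_pow, hstar g hgH (hg.trans (orderOf_map_dvd _ _)), map_one]⟩
  have hmem : ∀ g : G, r ∣ orderOf g → f g ∈ pCore r (G ⧸ K) := fun g hg => by
    by_cases hgH : g ∈ P.c x
    · exact hHF g hgH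
    refine hpure.mem_pCore hr (fun e => ?_) (fun w hw hw' => ?_) ?_
    · have h2 : f h = 1 := by simpa [e] using hHF h hh
      exact hr.one_lt.ne' ((Nat.coprime_self r).1 (hKo h ((QuotientGroup.eq_one_iff _).1 h2)))
    · obtain ⟨w, rfl⟩ := QuotientGroup.mk'_surjective K w
      rw [← map_pow, hstar w (fun e => hw (hHF w e)) (hw'.trans (orderOf_map_dvd _ _)), map_one]
    · rw [orderOf_eq_prime (p := r) (x := f g) (by rw [← map_pow, hstar g hgH hg, map_one])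
        fun e => hgH (hKH ((QuotientGroup.eq_one_iff _).1 e))]
  let L := (pCore r (G ⧸ K)).comap f
  have hLp : ∀ g ∈ L, ∃ k, g ^ r ^ k ∈ K := fun g hg => by
    obtain ⟨k, hk⟩ := pCore_isPGroup r (G ⧸ K) ⟨f g, hg⟩
    exact ⟨k, (QuotientGroup.eq_one_iff _).1 (congrArg Subtype.val hk)⟩
  have hyL : y ∉ L := fun e => by
    obtain ⟨k, hk⟩ := hLp y e
    have h2 := orderOf_dvd_of_pow_eq_one (P.pow_eq_one hx hy (hKH hk))
    rw [hyo] at h2
    exact htr ((Nat.prime_dvd_prime_iff_eq ht hr).1 (ht.dvd_of_dvd_pow h2))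
  have hyN : y ∈ normalizer (L : Set G) := by rw [normalizer_eq_top]; trivial
  have hLn := nilpotent_of_coset ht hyN hyL fun g hg hgL => by
    obtain ⟨k, hk⟩ := hLp _ (pow_mem_of_mem_sup hyN (hyt1 ▸ one_mem _) hg)
    rw [← pow_mul] at hk
    have h2 := orderOf_dvd_of_pow_eq_one (P.pow_eq_one hx (fun e => hgL (hHF g e)) (hKH hk))
    have h3 : (orderOf g).Coprime (r ^ k) :=
      (((Nat.Prime.coprime_iff_not_dvd hr).2 fun e => hgL (hmem g e)).symm).pow_right k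
    exact orderOf_dvd_iff_pow_eq_one.1 (h3.dvd_of_dvd_mul_right h2)
  have hK1 : ∀ g ∈ K, g = 1 := fun g hg => by
    by_contra hg1
    have h2 : (orderOf g).Coprime (orderOf a) := hao ▸ hKo g hg
    refine ha (P.eq hx hg1 (hKH hg) ▸ P.mem_of_ne hg1 (commute_of_mem_of_coprime_of_isNilpotent hLn
      (hHF g (hKH hg)) (hmem a hao.symm.dvd) h2) fun e => ?_)
    rw [e, Nat.coprime_self, hao] at h2
    exact hr.one_lt.ne' h2
  have hpG : Pure r G := fun g hg => (hLp g (hmem g hg)).imp fun k hk => hK1 _ hk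
  refine Or.inr (exists_frobenius (N := L) (fun e => hh1 (mem_bot.1 (e ▸ (hHF h hh : h ∈ L))))
    (fun e => hyL (e ▸ mem_top y)) fun n hn hn1 g hg => ?_)
  obtain ⟨j, hj⟩ := hLp n hn
  obtain ⟨k, hk⟩ := hpG.pow_of_comm hr hn1 (hK1 _ hj) hg
  obtain ⟨i, -, hi⟩ := (Nat.dvd_prime_pow hr).1 (orderOf_dvd_of_pow_eq_one hk)
  rcases i with _ | i
  · rw [pow_zero, orderOf_eq_one_iff] at hi
    exact hi ▸ one_mem _
  · exact hmem g (hi ▸ dvd_pow_self r i.succ_ne_zero)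

end Pt

end Cfsg.Lib.Part
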