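import Cfsg.Agent.Part.Pt
import Cfsg.Agent.Class.A5Recog
import Cfsg.Agent.Known.FourGroup

/-!
# Partitions without normal component: the case of a normal `p`-subgroup
-/

set_option autoImplicit false

universe u

namespace Cfsg.Lib.Part

open Cfsg.Agent Cfsg.Lib.Solv Cfsg.Lib.Known Subgroup

variable {G : Type u} [Group G]

theorem pow_mul_hom {N : Subgroup G} [hN : N.Normal] (hc : ∀ a ∈ N, ∀ b ∈ N, a * b = b * a) (a : G)
    {m n : G} (hm : m ∈ N) (hn : n ∈ N) (k : ℕ) :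
    (m * n * a) ^ k * (a ^ k)⁻¹ = (m * a) ^ k * (a ^ k)⁻¹ * ((n * a) ^ k * (a ^ k)⁻¹) := by
  have e : ∀ (x : G) (k : ℕ), (x * a) ^ (k + 1) * (a ^ (k + 1))⁻¹ =
      x * (a * ((x * a) ^ k * (a ^ k)⁻¹) * a⁻¹) := fun x k => by
    rw [pow_succ', pow_succ' a]; group
  have h1 : ∀ k : ℕ, (m * a) ^ k * (a ^ k)⁻¹ ∈ N := fun k => by
    induction k with
    | zero => simp
    | succ k ih => rw [e]; exact mul_mem hm (hN.conj_mem _ ih a)
  induction k with
  | zero => simp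
  | succ k ih =>
    rw [e, e, e, ih]
    have := hc _ hn _ (hN.conj_mem _ (h1 k) a)
    generalize (m * a) ^ k * (a ^ k)⁻¹ = u at this ⊢
    generalize (n * a) ^ k * (a ^ k)⁻¹ = v
    calc m * n * (a * (u * v) * a⁻¹) = m * (n * (a * u * a⁻¹)) * (a * v * a⁻¹) := by group
      _ = _ := by rw [this]; group

/-- A group with a self-centralizing normal four-group has order dividing 24. -/
theorem card_dvd_of_four [Finite G] {a b : G} (h : IsFourPair a b) [hN : (four a b).Normal]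
    (hC : ∀ g : G, (∀ x ∈ four a b, x * g = g * x) → g ∈ four a b) : (four a b).index ∣ 6 := by
  classical
  let X := {x : G // x ∈ four a b ∧ x ≠ 1}
  let act : MulAction G X :=
    { smul := fun g x => ⟨g * x * g⁻¹, hN.conj_mem _ x.2.1 g, by simpa using x.2.2⟩
      one_smul := fun x => Subtype.ext (by change 1 * x.1 * 1⁻¹ = x.1; group)
      mul_smul := fun g k x => Subtype.ext (by
        change g * k * x.1 * (g * k)⁻¹ = g * (k * x.1 * k⁻¹) * g⁻¹; group) }
  have hX : Nat.card X = 3 := by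
    have := Fintype.ofFinite (four a b)
    have e : X ≃ {x : four a b // x ≠ 1} :=
      { toFun := fun x => ⟨⟨x.1, x.2.1⟩, fun e => x.2.2 (congrArg Subtype.val e)⟩
        invFun := fun x => ⟨x.1.1, x.1.2, fun e => x.2 (Subtype.ext e)⟩
        left_inv := fun _ => rfl
        right_inv := fun _ => rfl }
    rw [Nat.card_congr e, Nat.card_eq_fintype_card, Fintype.card_subtype_compl,
      Fintype.card_subtype_eq, ← Nat.card_eq_fintype_card, h.card_four]
  have h1 : (MulAction.toPermHom G X).ker ≤ four a b := fun g hg => hC g fun x hx => by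
    by_cases hx1 : x = 1
    · simp [hx1]
    · have : g * x * g⁻¹ = x := congrArg Subtype.val (Equiv.congr_fun hg (⟨x, hx, hx1⟩ : X))
      rw [← mul_inv_eq_iff_eq_mul.1 this]
  refine (index_dvd_of_le h1).trans ?_
  rw [index_ker]
  have := card_subgroup_dvd_card (MulAction.toPermHom G X).range
  rwa [Nat.card_perm, hX] at this

namespace Pt

variable (P : Pt G)

theorem exists_not_mem (hNN : ∀ x : G, x ≠ 1 → ¬ (P.c x).Normal) {N : Subgroup G} [hN : N.Normal]
    (h1 : N ≠ ⊥) {x : G} (hx : x ≠ 1) : ∃ m ∈ N, m ∉ P.c x := by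
  by_contra h
  push Not at h
  obtain ⟨n, hn, hn1⟩ := (bot_or_exists_ne_one _).resolve_left h1
  exact hNN x hx (normalizer_eq_top_iff.1 (eq_top_iff.2 fun g _ =>
    P.mem_norm hx hn1 (h n hn) (h _ (hN.conj_mem n hn g))))

variable [Finite G] {p : ℕ} {N : Subgroup G} (hNN : ∀ x : G, x ≠ 1 → ¬ (P.c x).Normal)
  (hp : p.Prime) (hNp : IsPGroup p N) (hc : ∀ a ∈ N, ∀ b ∈ N, a * b = b * a)

include hp hNp hc in
theorem mul_pow_eq_one {n m y : G} (hn : n ∈ N) (hn1 : n ≠ 1) (hm : m ∈ N) (hm' : m ∉ P.c n)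
    (hy : y ∈ P.c n) (h : Commute n y) : (m * y) ^ p = 1 := by
  have := Fact.mk hp
  have h1 : m * y ∉ P.c n := fun e => hm' ((mul_mem_cancel_right hy).1 e)
  have h2 : Commute n (m * y) := Commute.mul_right (hc n hn m hm) h
  have h3 := P.prime hn1 h1 h2
  obtain ⟨k, hk⟩ := exists_orderOf_eq_pow_of_mem hNp hn
  have h4 := (Nat.prime_dvd_prime_iff_eq h3 hp).1 (h3.dvd_of_dvd_pow hk.dvd)
  rw [← h4, P.orderOf_eq hn1 h1 h2, pow_orderOf_eq_one]

variable [hN : N.Normal]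

include hNN hp hNp hc in
theorem eq_one_of_coprime {n y : G} (hn : n ∈ N) (hn1 : n ≠ 1) (hy : (orderOf y).Coprime p)
    (h : Commute n y) : y = 1 := by
  have := Fact.mk hp
  obtain ⟨m, hm, hm'⟩ := P.exists_not_mem hNN (N := N) (fun e => hn1 (mem_bot.1 (e ▸ hn))) hn1
  obtain ⟨k, hk⟩ := exists_orderOf_eq_pow_of_mem hNp hn
  have h1 := P.mul_pow_eq_one hp hNp hc hn hn1 hm hm' (P.mem_of_ne hn1 h fun e => by
    rw [← e, hk] at hy
    rcases k with _ | k
    · exact hn1 (orderOf_eq_one_iff.1 hk)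
    · exact hp.one_lt.ne' (Nat.eq_one_of_dvd_coprimes hy (dvd_pow_self p k.succ_ne_zero) dvd_rfl)) h
  have h2 : y ^ p ∈ N := by
    have := congrArg (QuotientGroup.mk' N) h1
    rw [map_pow, map_mul, show QuotientGroup.mk' N m = 1 from (QuotientGroup.eq_one_iff _).2 hm,
      one_mul, ← map_pow, map_one] at this
    exact (QuotientGroup.eq_one_iff _).1 this
  obtain ⟨j, hj⟩ := hNp ⟨_, h2⟩
  have h3 : y ^ p ^ (j + 1) = 1 := by rw [pow_succ', pow_mul]; exact congrArg Subtype.val hj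
  exact orderOf_eq_one_iff.1 (Nat.eq_one_of_dvd_coprimes (hy.pow_right _) dvd_rfl
    (orderOf_dvd_of_pow_eq_one h3))

include hNN hp hNp hc in
theorem pure (h1 : N ≠ ⊥) : Pure p G := fun g hg => by
  have := Fact.mk hp
  refine ⟨(orderOf g).factorization p, ?_⟩
  by_contra hy1
  set y := g ^ p ^ (orderOf g).factorization p with hy
  have hyo : (orderOf y).Coprime p := by
    rw [hy, orderOf_pow_of_dvd (pow_pos hp.pos _).ne' (Nat.ordProj_dvd _ _)]
    exact (Nat.coprime_ordCompl hp (orderOf_pos g).ne').symm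
  have hg1 : g ≠ 1 := fun e => hy1 (by rw [hy, e, one_pow])
  have hyD : y ∈ P.c g := pow_mem (P.mem g) _
  have ho := orderOf_pow_orderOf_div (orderOf_pos g).ne' hg
  set a := g ^ (orderOf g / p)
  have ha1 : a ≠ 1 := fun e => hp.one_lt.ne (by rw [← ho, e, orderOf_one])
  have haD : a ∈ P.c g := pow_mem (P.mem g) _
  have hD : ∀ m : ↥(N ⊓ normalizer (P.c g : Set G)), m * y * m⁻¹ * y⁻¹ ∈ P.c g := fun m =>
    mul_mem ((mem_normalizer_iff.1 m.2.2 y).1 hyD) (inv_mem hyD)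
  let φ : ↥(N ⊓ normalizer (P.c g : Set G)) → ↥(N ⊓ normalizer (P.c g : Set G)) := fun m =>
    ⟨m * y * m⁻¹ * y⁻¹, by
      simpa [mul_assoc] using mul_mem m.2.1 (hN.conj_mem _ (inv_mem m.2.1) y), le_normalizer (hD m)⟩
  have hφ : Function.Injective φ := fun m m' e => by
    have e1 : m.1 * y * m.1⁻¹ = m'.1 * y * m'.1⁻¹ := mul_right_cancel (congrArg Subtype.val e)
    by_contra hne
    refine hy1 (P.eq_one_of_coprime hNN hp hNp hc (n := m'.1⁻¹ * m.1)
      (mul_mem (inv_mem m'.2.1) m.2.1) (fun e => hne (Subtype.ext (inv_mul_eq_one.1 e).symm)) hyo ?_)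
    change m'.1⁻¹ * m.1 * y = y * (m'.1⁻¹ * m.1)
    calc m'.1⁻¹ * m.1 * y = m'.1⁻¹ * (m.1 * y * m.1⁻¹) * m.1 := by group
      _ = _ := by rw [e1]; group
  obtain ⟨m₀, hm₀, hm₀'⟩ := P.exists_not_mem hNN h1 hg1
  obtain ⟨m, hm, hm', hma⟩ := PG.exists_not_mem_commutator_mem (S := N ⊔ zpowers a) (N := N)
    (H := P.c g) (hNp.to_sup_of_normal_left (IsPGroup.of_card (n := 1)
      (by rw [Nat.card_zpowers, ho, pow_one]))).isNilpotent le_sup_left
    (by rw [normalizer_eq_top]; exact le_top) fun e => hm₀' (e hm₀)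
  have h2 : m ∈ normalizer (P.c g : Set G) := P.mem_norm hg1 ha1 haD (by
    simpa [commutatorElement_def] using mul_mem (hma a (mem_sup_right (mem_zpowers a))).1 haD)
  obtain ⟨m', e⟩ := Finite.injective_iff_surjective.1 hφ ⟨m, hm, h2⟩
  have e' : m'.1 * y * m'.1⁻¹ * y⁻¹ = m := congrArg Subtype.val e
  exact hm' (e' ▸ hD m')

include hp hNp hc in
theorem mul_mem_c (h1 : N ≠ ⊥) {a m m' : G} {k : ℕ} (ha : a ^ p ^ k = 1) (hap : a ^ p ≠ 1)
    (hm : m ∈ N) (hm' : m' ∈ N) (h2 : m ∉ P.c a) (h3 : m' ∉ P.c a) :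
    m * m' ∈ P.c a ∧ m ^ p = 1 := by
  have := Fact.mk hp
  have ha1 : a ≠ 1 := fun e => hap (by rw [e, one_pow])
  obtain ⟨j, -, hj⟩ := (Nat.dvd_prime_pow hp).1 (orderOf_dvd_of_pow_eq_one ha)
  obtain ⟨n, ⟨hn, hn'⟩, hn1⟩ := (bot_or_exists_ne_one _).resolve_left
    (inf_centralizer_ne_bot_of_dvd_card (Q := zpowers a) (L := N)
      (IsPGroup.of_card (n := j) (by rw [Nat.card_zpowers, hj]))
      (by rw [normalizer_eq_top]; exact le_top) (by
        obtain ⟨k, hk⟩ := hNp.exists_card_eq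
        rw [hk]
        exact dvd_pow_self p fun e => h1 (by rwa [e, pow_zero, card_eq_one] at hk)))
  have hca : Commute a n := hn' a (mem_zpowers a)
  have hna : n ∈ P.c a := by
    by_contra h
    have h4 := P.prime ha1 h hca
    rw [← (Nat.prime_dvd_prime_iff_eq h4 hp).1 (h4.dvd_of_dvd_pow hj.dvd)] at hap
    exact hap (pow_orderOf_eq_one a)
  have e := P.eq ha1 hn1 hna
  have key : ∀ x ∈ N, x ∉ P.c a → (x * a) ^ p = 1 := fun x hx hx' =>
    P.mul_pow_eq_one hp hNp hc hn hn1 hx (e ▸ hx') (e ▸ P.mem a) hca.symm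
  refine ⟨by_contra fun h4 => ?_, by
    simpa using P.mul_pow_eq_one hp hNp hc hn hn1 hm (e ▸ h2) (one_mem _) (Commute.one_right n)⟩
  have := pow_mul_hom hc a hm hm' p
  rw [key _ (mul_mem hm hm') h4, key _ hm h2, key _ hm' h3, one_mul] at this
  exact hap (by simpa using this)

omit hN in
include hNN hp in
/-- The case of a normal `p`-subgroup. -/
theorem of_pCore (hF : pCore p G ≠ ⊥) : Nonempty (G ≃* Equiv.Perm (Fin 4)) ∨
    (∃ p : ℕ, p.Prime ∧ closure {g : G | g ^ p ≠ 1} ≠ ⊤) ∨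
      ∃ H : Subgroup G, IsFrobeniusComplement H := by
  have := Fact.mk hp
  let N := pCore p G ⊓ centralizer (pCore p G : Set G)
  have hNp : IsPGroup p N := (pCore_isPGroup p G).to_le inf_le_left
  have hc : ∀ a ∈ N, ∀ b ∈ N, a * b = b * a := fun a ha b hb => hb.2 a ha.1
  have h1 : N ≠ ⊥ := by
    obtain ⟨z, hz, hz1, h⟩ := exists_center_of_nilpotent (pCore_isPGroup p G).isNilpotent hF
    exact fun e => hz1 (mem_bot.1 (e ▸ (⟨hz, h⟩ : z ∈ N)))
  have hP := P.pure hNN hp hNp hc h1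
  by_cases h2 : ∀ g : G, p ∣ orderOf g → g ^ p = 1
  · right
    have h3 := fun a => hP.mem_pCore hp hF (fun g _ => h2 g) (a := a)
    have h4 : ∀ g : G, (∃ k, g ^ p ^ k = 1) → g = 1 ∨ p ∣ orderOf g := fun g ⟨k, hk⟩ => by
      obtain ⟨i, -, hi⟩ := (Nat.dvd_prime_pow hp).1 (orderOf_dvd_of_pow_eq_one hk)
      rcases i with _ | i
      · exact Or.inl (orderOf_eq_one_iff.1 hi)
      · exact Or.inr (hi ▸ dvd_pow_self p i.succ_ne_zero)
    by_cases hT : pCore p G = ⊤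
    · refine Or.inl ⟨p, hp, fun e => hF (eq_bot_iff.2 (le_top.trans (e ▸ (closure_le _).2
        fun g hg => (hg ?_).elim)))⟩
      rcases h4 g (pCore_eq_top_iff.1 hT g) with rfl | h
      exacts [one_pow p, h2 g h]
    · refine Or.inr (exists_frobenius hF hT fun n hn hn1 g hg => ?_)
      obtain ⟨j, hj⟩ := pCore_isPGroup p G ⟨n, hn⟩
      rcases h4 g (hP.pow_of_comm hp hn1 (congrArg Subtype.val hj) hg) with rfl | h
      exacts [one_mem _, h3 g h]
  left
  push Not at h2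
  obtain ⟨a, ha, hap⟩ := h2
  obtain ⟨k, hk⟩ := hP a ha
  have ha1 : a ≠ 1 := fun e => hap (by rw [e, one_pow])
  obtain ⟨m, hm, hm'⟩ := P.exists_not_mem hNN h1 ha1
  obtain ⟨hmm, hmp⟩ := P.mul_mem_c hp hNp hc h1 hk hap hm hm hm' hm'
  obtain rfl : p = 2 := by
    by_contra hp2
    obtain ⟨i, hi⟩ := hp.odd_of_ne_two hp2
    rw [hi, pow_succ, pow_mul, pow_two] at hmp
    exact hm' ((mul_mem_cancel_left (pow_mem hmm i)).1 (hmp ▸ one_mem _))
  have hm1 : m ≠ 1 := fun e => hm' (e ▸ one_mem _)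
  obtain ⟨g, hg⟩ : ∃ g : G, g ∉ normalizer (P.c a : Set G) := by
    by_contra h
    push Not at h
    exact hNN a ha1 (normalizer_eq_top_iff.1 (eq_top_iff.2 fun g _ => h g))
  have hga : g * a * g⁻¹ ∉ P.c a := fun e => hg (P.mem_norm ha1 ha1 (P.mem a) e)
  have huv : ∀ u ∈ N, u ∈ P.c a → u ≠ 1 → ∀ v ∈ N, v ∈ P.c a → v ≠ 1 → u * v = 1 :=
    fun u hu hu' hu1 v hv hv' hv1 => P.eq_one ha1 hga (mul_mem hu' hv')
      (P.mul_mem_c hp hNp hc h1 (k := k) (by rw [conj_pow, hk]; group)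
        (by rw [conj_pow]; simpa using hap) hu hv (fun e => hu1 (P.eq_one ha1 hga hu' e))
        fun e => hv1 (P.eq_one ha1 hga hv' e)).1
  obtain ⟨n, hn, hna, hn1⟩ : ∃ n ∈ N, n ∈ P.c a ∧ n ≠ 1 := by
    obtain ⟨m', h3, h4⟩ := P.exists_not_mem hNN h1 hm1
    by_cases h5 : m' ∈ P.c a
    · exact ⟨m', h3, h5, fun e => h4 (e ▸ one_mem _)⟩
    · exact ⟨m * m', mul_mem hm h3, (P.mul_mem_c hp hNp hc h1 hk hap hm h3 hm' h5).1, fun e =>
        h4 (eq_inv_of_mul_eq_one_right e ▸ inv_mem (P.mem m))⟩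
  have hnn := huv n hn hna hn1 n hn hna hn1
  rw [pow_two] at hmp
  have h4 : IsFourPair n m := ⟨hnn, hmp, hc m hm n hn, hn1, hm1, fun e => hm' (e ▸ hna)⟩
  have h5 : ∀ u ∈ N, u ∈ P.c a → u = 1 ∨ u = n := fun u hu hu' => by
    by_cases hu1 : u = 1
    · exact Or.inl hu1
    · exact Or.inr (mul_right_cancel ((huv u hu hu' hu1 n hn hna hn1).trans hnn.symm))
  have hN4 : N = four n m := by
    refine le_antisymm (fun u hu => h4.mem_iff.2 ?_) (four_le_iff.2 ⟨hn, hm⟩)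
    by_cases hu' : u ∈ P.c a
    · exact (h5 u hu hu').imp_right Or.inl
    · rcases h5 _ (mul_mem hu hm) (P.mul_mem_c hp hNp hc h1 hk hap hu hm hu' hm').1 with h | h
      · exact Or.inr (Or.inr (Or.inl (mul_right_cancel (h.trans hmp.symm))))
      · exact Or.inr (Or.inr (Or.inr (by rw [← h, mul_assoc, hmp, mul_one])))
  have hF2 : ∀ f ∈ pCore 2 G, f * f = 1 := fun f hf => by
    by_contra hf2
    have hf1 : f ≠ 1 := fun e => hf2 (by rw [e, mul_one])
    have key : ∀ u ∈ N, u * u = 1 → u ∈ P.c f := fun u hu hu2 => by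
      by_contra h
      exact hf2 (by simpa [pow_two] using
        P.pow_eq_one_of_comm hf1 h (hu.2 f hf) (m := 2) (by rw [pow_two, hu2]))
    exact hm' (P.eq ha1 hn1 hna ▸ P.eq hf1 hn1 (key n hn hnn) ▸ key m hm hmp)
  have hFN : pCore 2 G ≤ N := fun f hf => ⟨hf, fun f' hf' => by
    have e : ∀ x ∈ pCore 2 G, x⁻¹ = x := fun x hx => inv_eq_of_mul_eq_one_right (hF2 x hx)
    rw [← e _ (mul_mem hf' hf), mul_inv_rev, e f hf, e f' hf']⟩
  have hnorm : (four n m).Normal := hN4 ▸ inferInstance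
  have h6 := card_dvd_of_four h4 fun g hg =>
    hN4 ▸ hFN (hP.mem_of_cent hp hF fun x hx => hg x (hN4 ▸ hFN hx))
  have h7 := (four n m).card_mul_index
  rw [h4.card_four] at h7
  have haN : a ∉ four n m := fun e => hap (by rw [pow_two, h4.mul_self e])
  have h8 : ∀ g : G, (∃ k, g ^ 2 ^ k = 1) → g ^ 4 = 1 := fun g ⟨k, hk⟩ => by
    let f := QuotientGroup.mk' (four n m)
    have e1 : orderOf (f g) ∣ 6 := (_root_.orderOf_dvd_natCard _).trans h6
    have e2 : orderOf (f g) ∣ 2 ^ k := (orderOf_map_dvd f g).trans (orderOf_dvd_of_pow_eq_one hk)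
    have e3 : orderOf (f g) ∣ 2 := ((Nat.Coprime.pow_right k (by norm_num : Nat.Coprime 3 2)).symm
      |>.coprime_dvd_left e2).dvd_of_dvd_mul_right (show _ ∣ 2 * 3 from e1)
    have e4 : g ^ 2 ∈ four n m := (QuotientGroup.eq_one_iff _).1 (by
      rw [← orderOf_dvd_iff_pow_eq_one.1 e3]; rfl)
    rw [show 4 = 2 + 2 from rfl, pow_add, h4.mul_self e4]
  have h9 : 2 ∣ (four n m).index := by
    by_contra h
    exact haN (le_of_coprime_card_index (H := zpowers a) (by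
      obtain ⟨j, -, hj⟩ := (Nat.dvd_prime_pow hp).1 (orderOf_dvd_of_pow_eq_one hk)
      rw [Nat.card_zpowers, hj]
      exact ((Nat.Prime.coprime_iff_not_dvd hp).2 h).pow_left j) (mem_zpowers a))
  have h10 : (four n m).index ≠ 2 := fun e => by
    rw [e] at h7
    exact haN (hN4 ▸ hFN (pCore_eq_top_iff.2 (IsPGroup.of_card (p := 2) (G := G) (n := 3) h7.symm) ▸ mem_top a))
  have h11 : (four n m).index = 6 := by
    have := Nat.le_of_dvd (by norm_num) h6
    interval_cases (four n m).index <;> omega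
  rw [h11] at h7
  refine Class.nonempty_mulEquiv_S4_of_pow h7.symm fun g => ?_
  by_cases h : 2 ∣ orderOf g
  · exact Or.inr (h8 g (hP g h))
  · have e1 : orderOf g ∣ 2 ^ 3 * 3 := by rw [show 2 ^ 3 * 3 = 4 * 6 from rfl, h7]; exact _root_.orderOf_dvd_natCard g
    exact Or.inl (orderOf_dvd_iff_pow_eq_one.1 ((((Nat.Prime.coprime_iff_not_dvd hp).2 h).symm.pow_right
      3).dvd_of_dvd_mul_left e1))

end Pt

end Cfsg.Lib.Part
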